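import Cfsg.Agent.SylR.Base

set_option autoImplicit false
set_option linter.unusedSectionVars false

namespace Cfsg.Agent.SylR

variable {G : Type*} [Group G] [Finite G] (p : ℕ) [hp : Fact p.Prime]

/-- the defect -/
noncomputable def rr (Y Z : Subgroup G) : ℤ :=
  ((p : ℤ) - 1) * nu p Y - (2 * (p : ℤ) - 1) * nu p (Y ⊓ Z)

/-- the inequality for `Y` -/
def II (Y : Subgroup G) : Prop := ∀ Z : Subgroup G, ¬ Y ≤ Z → 0 ≤ rr p Y Z

theorem sum_rr {Y : Subgroup G} {P : Sylow p G} {B : Finset (Subgroup G)} (hB : Invt Y B)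
    (hP : (P : Subgroup G) ≤ Y) :
    ∑ Z ∈ B, rr p Y Z =
      nu p Y * (((p : ℤ) - 1) * B.card - (2 * (p : ℤ) - 1) * fx (P : Subgroup G) B) := by
  have h := congrArg (Nat.cast : ℕ → ℤ) (sum_nu p hB hP)
  push_cast at h
  unfold rr
  rw [Finset.sum_sub_distrib, Finset.sum_const, ← Finset.mul_sum, h, nsmul_eq_mul]
  ring

theorem rr_orb {Y Z Z' : Subgroup G} (h : Z' ∈ orb Y Z) : rr p Y Z' = rr p Y Z := by
  unfold rr; rw [nu_inf_orb p h]

theorem card_mul_rr {Y : Subgroup G} (Z : Subgroup G) {P : Sylow p G} (hP : (P : Subgroup G) ≤ Y) :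
    (orb Y Z).card * rr p Y Z = nu p Y * (((p : ℤ) - 1) * (orb Y Z).card -
      (2 * (p : ℤ) - 1) * fx (P : Subgroup G) (orb Y Z)) := by
  rw [← sum_rr p (invt_orb Y Z) hP, Finset.sum_congr rfl fun Z' h => rr_orb p h,
    Finset.sum_const, nsmul_eq_mul]

theorem rr_of_le {Y Z : Subgroup G} (h : Y ≤ Z) : rr p Y Z = -(p * nu p Y) := by
  unfold rr; rw [inf_eq_left.2 h]; ring

theorem two_nu_lt {Y Z : Subgroup G} (hZY : Z ≤ Y) (hZ : ¬ Y ≤ Z) (hI : II p Y)
    (h : ∃ P : Sylow p G, (P : Subgroup G) ≤ Z) : 2 * nu p Z < nu p Y := by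
  have h1 := hI Z hZ
  unfold rr at h1
  rw [inf_eq_right.2 hZY] at h1
  have h2 : (0 : ℤ) < nu p Z := by exact_mod_cast nu_pos p h
  have h3 : (2 : ℤ) ≤ p := by exact_mod_cast hp.out.two_le
  have : (2 : ℤ) * nu p Z < nu p Y := by
    by_contra hc
    push Not at hc
    nlinarith
  exact_mod_cast this

theorem orb_has_sylow {Y Z : Subgroup G} (h : ∃ P : Sylow p G, (P : Subgroup G) ≤ Z) :
    ∀ Z' ∈ orb Y Z, ∃ Q : Sylow p G, (Q : Subgroup G) ≤ Z' := by
  intro Z' hZ'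
  obtain ⟨y, _, rfl⟩ := mem_orb.1 hZ'
  obtain ⟨P, hP⟩ := h
  exact ⟨y • P, by rw [coe_smul, cj_le_cj_iff]; exact hP⟩

theorem card_orb_mem {Y Z Z' : Subgroup G} (h : Z' ∈ orb Y Z) : Nat.card Z' = Nat.card Z := by
  obtain ⟨y, _, rfl⟩ := mem_orb.1 h
  exact card_cj _ _

theorem mv_sdiff (P : Subgroup G) {B B' : Finset (Subgroup G)} [DecidableEq (Subgroup G)]
    (h : B' ⊆ B) : mv P B = mv P B' + mv P (B \ B') := by
  classical
  unfold mv
  rw [← Finset.card_union_of_disjoint]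
  · congr 1
    ext Z
    simp only [Finset.mem_filter, Finset.mem_union, Finset.mem_sdiff]
    constructor
    · rintro ⟨h1, h2⟩
      by_cases h3 : Z ∈ B'
      · exact Or.inl ⟨h3, h2⟩
      · exact Or.inr ⟨⟨h1, h3⟩, h2⟩
    · rintro (⟨h1, h2⟩ | ⟨⟨h1, _⟩, h2⟩)
      · exact ⟨h h1, h2⟩
      · exact ⟨h1, h2⟩
  · exact Finset.disjoint_filter_filter Finset.disjoint_sdiff

/-- no intermediate member when the defect is small -/
theorem no_between {Y' K' Y : Subgroup G} (hY' : KK p Y') (hK' : KK p K') (hY : KK p Y)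
    (h1 : Y' < K') (h2 : K' < Y) (hIK : II p K') (hIY : II p Y)
    (hD : (orb Y Y').card * rr p Y Y' ≤ ((p : ℤ) - 2) * p * nu p Y) : False := by
  classical
  obtain ⟨P, hP⟩ := hY'.1
  have hPK : (P : Subgroup G) ≤ K' := hP.trans h1.le
  have hPY : (P : Subgroup G) ≤ Y := hPK.trans h2.le
  set B := orb Y Y' with hB
  have hBS := orb_has_sylow p (Y := Y) hY'.1
  have hinvP : Invt (P : Subgroup G) B := (invt_orb Y Y').mono hPY
  obtain ⟨s, hs⟩ := dvd_mv p hinvP hBS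
  have hfm := fx_add_mv (P : Subgroup G) B
  have hid := orb_id p Y' hPY
  rw [inf_eq_right.2 (h1.trans h2).le] at hid
  rw [card_mul_rr p Y' hPY] at hD
  have hnuY : (0 : ℤ) < nu p Y := by exact_mod_cast nu_pos p hY.1
  have hp2 : (2 : ℤ) ≤ p := by exact_mod_cast hp.out.two_le
  have hD' : ((p : ℤ) - 1) * B.card - (2 * (p : ℤ) - 1) * fx (P : Subgroup G) B ≤
      ((p : ℤ) - 2) * p := by
    by_contra hc
    push Not at hc
    have := mul_lt_mul_of_pos_left hc hnuY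
    nlinarith
  have hn : (B.card : ℤ) = fx (P : Subgroup G) B + p * s := by
    rw [← hfm, hs]; push_cast; ring
  rw [hn] at hD'
  have hf : ((p : ℤ) - 1) * s - fx (P : Subgroup G) B ≤ p - 2 := by
    by_contra hc
    push Not at hc
    have := mul_lt_mul_of_pos_left hc (show (0 : ℤ) < p by linarith)
    nlinarith
  have a1 := two_nu_lt p h1.le (not_le_of_gt h1) hIK hY'.1
  have a2 := two_nu_lt p h2.le (not_le_of_gt h2) hIY hK'.1
  by_cases hs2 : 2 ≤ s
  · have hs2' : (2 : ℤ) ≤ s := by exact_mod_cast hs2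
    have h4 : (B.card : ℤ) ≤ 4 * fx (P : Subgroup G) B := by
      rw [hn]; nlinarith
    have h4' : B.card ≤ 4 * fx (P : Subgroup G) B := by exact_mod_cast h4
    have hBpos : 0 < B.card := Finset.card_pos.2 ⟨Y', self_mem_orb Y Y'⟩
    have : B.card * nu p Y ≤ B.card * (4 * nu p Y') := by
      calc B.card * nu p Y ≤ 4 * fx (P : Subgroup G) B * nu p Y := Nat.mul_le_mul_right _ h4'
        _ = 4 * (nu p Y * fx (P : Subgroup G) B) := by ring
        _ = B.card * (4 * nu p Y') := by rw [← hid]; ring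
    have := Nat.le_of_mul_le_mul_left this hBpos
    omega
  · set B' := orb K' Y' with hB'
    have hsub : B' ⊆ B := orb_subset ((invt_orb Y Y').mono h2.le) (self_mem_orb Y Y')
    have hne : ∃ Z ∈ B, Z ∉ B' := by
      by_contra hc
      push Not at hc
      have heq : B' = B := Finset.Subset.antisymm hsub hc
      have hid' := orb_id p Y' hPK
      rw [inf_eq_right.2 h1.le, ← hB', heq, hid] at hid'
      have hfpos : 0 < fx (P : Subgroup G) B := by
        unfold fx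
        apply Finset.card_pos.2
        exact ⟨Y', by simp only [Finset.mem_filter]; exact ⟨self_mem_orb Y Y', hP⟩⟩
      have := Nat.eq_of_mul_eq_mul_right hfpos hid'
      omega
    obtain ⟨Z, hZB, hZB'⟩ := hne
    have hinv2 : Invt K' (B \ B') := by
      intro y hy W hW
      rw [Finset.mem_sdiff] at hW ⊢
      refine ⟨invt_orb Y Y' y (h2.le hy) W hW.1, fun h => hW.2 ?_⟩
      have := invt_orb K' Y' y⁻¹ (K'.inv_mem hy) _ h
      rwa [cj_inv_cj] at this
    have hKZ : ¬ K' ≤ Z := by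
      intro h
      have e1 := Subgroup.card_le_of_le h
      rw [card_orb_mem hZB] at e1
      exact h1.ne (Subgroup.eq_of_le_of_card_ge h1.le e1)
    obtain ⟨Z1, hZ1, hZ1'⟩ := exists_moved p hK' (not_le_of_gt h1) hPK
    obtain ⟨Z2, hZ2, hZ2'⟩ := exists_moved p hK' hKZ hPK
    have hZ2m : Z2 ∈ B \ B' := orb_subset hinv2 (Finset.mem_sdiff.2 ⟨hZB, hZB'⟩) hZ2
    have m1 : p ≤ mv (P : Subgroup G) B' :=
      Nat.le_of_dvd (mv_pos hZ1 hZ1') (dvd_mv p ((invt_orb K' Y').mono hPK)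
        fun W hW => hBS W (hsub hW))
    have m2 : p ≤ mv (P : Subgroup G) (B \ B') :=
      Nat.le_of_dvd (mv_pos hZ2m hZ2') (dvd_mv p (hinv2.mono hPK)
        fun W hW => hBS W (Finset.mem_sdiff.1 hW).1)
    have m3 := mv_sdiff (P : Subgroup G) hsub
    have hpp := hp.out.two_le
    have hs1 : s ≤ 1 := by omega
    have : p * s ≤ p * 1 := Nat.mul_le_mul_left p hs1
    omega

/-- the invariant carried along the chain -/
def JJ (A : Finset (Subgroup G)) (i : ℕ) (Y : Subgroup G) : Prop :=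
  ∀ β ∈ A, ¬ Y ≤ β → (∃ P : Sylow p G, (P : Subgroup G) ≤ Y ⊓ β) ∧
    (orb Y (gen p (Y ⊓ β))).card * rr p Y β ≤ (i : ℤ) * p * nu p Y

theorem JJ.succ {A : Finset (Subgroup G)} {i : ℕ} {Y : Subgroup G} (h : JJ p A i Y) :
    JJ p A (i + 1) Y := by
  intro β hβ hY
  obtain ⟨h1, h2⟩ := h β hβ hY
  refine ⟨h1, h2.trans ?_⟩
  push_cast
  have : (0 : ℤ) ≤ p * nu p Y := by positivity
  nlinarith

theorem rr_gen (Y β : Subgroup G) : rr p Y (gen p (Y ⊓ β)) = rr p Y β := by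
  unfold rr
  rw [nu_congr p (Y := Y ⊓ gen p (Y ⊓ β)) (Z := Y ⊓ β)]
  intro P
  rw [le_inf_iff, le_gen_iff, le_inf_iff]
  tauto

theorem gen_inf_lt {Y β : Subgroup G} (h : ¬ Y ≤ β) : gen p (Y ⊓ β) < Y := by
  refine lt_of_le_of_ne ((gen_le p _).trans inf_le_left) fun e => h ?_
  rw [← e]
  exact (gen_le p _).trans inf_le_right

theorem step {A : Finset (Subgroup G)} {i : ℕ} {Y γ : Subgroup G} (hi : i + 3 ≤ p)
    (hI : ∀ W : Subgroup G, W ≤ Y → KK p W → II p W) (hY : KK p Y) (hJ : JJ p A i Y)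
    (hγ : γ ∈ A) (hYγ : ¬ Y ≤ γ) : JJ p A (i + 1) (gen p (Y ⊓ γ)) := by
  classical
  intro β hβ hY'β
  set Y' := gen p (Y ⊓ γ) with hY'def
  have hY'lt : Y' < Y := gen_inf_lt p hYγ
  obtain ⟨hγ1, hγ2⟩ := hJ γ hγ hYγ
  have hY' : KK p Y' := KK_gen p hγ1
  have hYβ : ¬ Y ≤ β := fun h => hY'β (hY'lt.le.trans h)
  obtain ⟨hβ1, hβ2⟩ := hJ β hβ hYβ
  set Z := gen p (Y ⊓ β) with hZdef
  have hZlt : Z < Y := gen_inf_lt p hYβ
  have hZ : KK p Z := KK_gen p hβ1
  have hZβ : Z ≤ β := (gen_le p _).trans inf_le_right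
  have hnuY : (0 : ℤ) < nu p Y := by exact_mod_cast nu_pos p hY.1
  have hnuY' : (0 : ℤ) < nu p Y' := by exact_mod_cast nu_pos p hY'.1
  have hp3 : (i : ℤ) + 3 ≤ p := by exact_mod_cast hi
  have hi0 : (0 : ℤ) ≤ i := by positivity
  obtain ⟨P, hP⟩ := hY'.1
  have hPY : (P : Subgroup G) ≤ Y := hP.trans hY'lt.le
  have huniq : ∀ Z' ∈ orb Y Z, Y' ≤ Z' → Z' = Y' := by
    intro Z' hZ' hle
    by_contra hne
    obtain ⟨y, hy, rfl⟩ := mem_orb.1 hZ'
    have hlt : cj y Z < Y := by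
      refine lt_of_le_of_ne ?_ fun e => hZlt.ne ?_
      · rw [← cj_self hy, cj_le_cj_iff]; exact hZlt.le
      · apply cj_injective y
        rw [e, cj_self hy]
    refine no_between p hY' (KK_cj p y hZ) hY (lt_of_le_of_ne hle (Ne.symm hne)) hlt
      (hI _ hlt.le (KK_cj p y hZ)) (hI _ le_rfl hY) ?_
    rw [hY'def, rr_gen]
    refine hγ2.trans ?_
    have : (0 : ℤ) ≤ p * nu p Y := by positivity
    nlinarith
  have hD : ((p : ℤ) - 1) * (orb Y Z).card -
      (2 * (p : ℤ) - 1) * fx (P : Subgroup G) (orb Y Z) ≤ i * p := by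
    rw [← rr_gen, ← hZdef, card_mul_rr p Z hPY] at hβ2
    by_contra hc
    push Not at hc
    have := mul_lt_mul_of_pos_left hc hnuY
    nlinarith
  have hsum := sum_rr p ((invt_orb Y Z).mono hY'lt.le) hP
  have hΛ : orb Y' Z ⊆ orb Y Z := orb_subset ((invt_orb Y Z).mono hY'lt.le) (self_mem_orb Y Z)
  have hY'Z : ¬ Y' ≤ Z := fun h => hY'β (h.trans hZβ)
  have hIY' : II p Y' := hI _ hY'lt.le hY'
  have hrest : -((p : ℤ) * nu p Y') ≤ ∑ W ∈ orb Y Z \ orb Y' Z, rr p Y' W := by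
    by_cases hm : Y' ∈ orb Y Z \ orb Y' Z
    · rw [← Finset.add_sum_erase _ _ hm, rr_of_le p le_rfl]
      have : 0 ≤ ∑ W ∈ (orb Y Z \ orb Y' Z).erase Y', rr p Y' W := by
        apply Finset.sum_nonneg
        intro W hW
        rw [Finset.mem_erase, Finset.mem_sdiff] at hW
        exact hIY' W fun h => hW.1 (huniq W hW.2.1 h)
      linarith
    · have : 0 ≤ ∑ W ∈ orb Y Z \ orb Y' Z, rr p Y' W := by
        apply Finset.sum_nonneg
        intro W hW
        refine hIY' W fun h => hm ?_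
        have e := huniq W (Finset.mem_sdiff.1 hW).1 h
        rw [e] at hW; exact hW
      have : (0 : ℤ) ≤ p * nu p Y' := by positivity
      linarith
  have hΛsum : ((orb Y' Z).card : ℤ) * rr p Y' Z ≤ ((i : ℤ) + 1) * p * nu p Y' := by
    have e1 := Finset.sum_sdiff (f := rr p Y') hΛ
    rw [Finset.sum_congr rfl fun Z' (h : Z' ∈ orb Y' Z) => rr_orb p h, Finset.sum_const,
      nsmul_eq_mul, hsum] at e1
    have := mul_le_mul_of_nonneg_left hD hnuY'.le
    nlinarith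
  have hSS : ∀ Q : Sylow p G, (Q : Subgroup G) ≤ Y' ⊓ Z ↔ (Q : Subgroup G) ≤ Y' ⊓ β := by
    intro Q
    rw [le_inf_iff, le_inf_iff]
    exact ⟨fun h => ⟨h.1, h.2.trans hZβ⟩,
      fun h => ⟨h.1, le_gen p (le_inf (h.1.trans hY'lt.le) h.2)⟩⟩
  have hrr : rr p Y' β = rr p Y' Z := by
    unfold rr; rw [nu_congr p hSS]
  constructor
  · by_contra hc
    have hnu0 : nu p (Y' ⊓ Z) = 0 := by
      by_contra h0
      obtain ⟨Q, hQ⟩ := exists_of_nu_pos p (Nat.pos_of_ne_zero h0)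
      exact hc ⟨Q, (hSS Q).1 hQ⟩
    have hid := orb_id p Z hP
    rw [hnu0, mul_zero] at hid
    have hf0 : fx (P : Subgroup G) (orb Y' Z) = 0 := by
      rcases Nat.mul_eq_zero.1 hid.symm with h | h
      · rw [h] at hnuY'; simp at hnuY'
      · exact h
    have hfm := fx_add_mv (P : Subgroup G) (orb Y' Z)
    have hdv := dvd_mv p ((invt_orb Y' Z).mono hP) (orb_has_sylow p hZ.1)
    have hBpos : 0 < (orb Y' Z).card := Finset.card_pos.2 ⟨Z, self_mem_orb Y' Z⟩
    have hge : p ≤ (orb Y' Z).card := by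
      rw [hf0, zero_add] at hfm
      rw [hfm] at hdv
      exact Nat.le_of_dvd hBpos hdv
    have hge' : (p : ℤ) ≤ (orb Y' Z).card := by exact_mod_cast hge
    unfold rr at hΛsum
    rw [hnu0] at hΛsum
    push_cast at hΛsum
    have t1 : (0 : ℤ) ≤ ((p : ℤ) - 1) * nu p Y' := mul_nonneg (by linarith) hnuY'.le
    have t2 := mul_le_mul_of_nonneg_right hge' t1
    have t3 : (0 : ℤ) < p * nu p Y' := mul_pos (by linarith) hnuY'
    nlinarith
  · have hcard : (orb Y' (gen p (Y' ⊓ β))).card ≤ (orb Y' Z).card := by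
      apply Finset.card_le_card_of_surjOn (fun W => gen p (Y' ⊓ W))
      intro W hW
      obtain ⟨y, hy, rfl⟩ := mem_orb.1 (Finset.mem_coe.1 hW)
      refine ⟨cj y Z, Finset.mem_coe.2 (mem_orb.2 ⟨y, hy, rfl⟩), ?_⟩
      show gen p (Y' ⊓ cj y Z) = _
      rw [← gen_congr p hSS, cj_gen p y (Y' ⊓ Z), cj_inf, cj_self hy]
    have hcard' : ((orb Y' (gen p (Y' ⊓ β))).card : ℤ) ≤ (orb Y' Z).card := by exact_mod_cast hcard
    rw [hrr]
    push_cast
    exact (mul_le_mul_of_nonneg_right hcard' (hIY' Z hY'Z)).trans hΛsum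

theorem chain {A : Finset (Subgroup G)} {K : Subgroup G}
    (hI : ∀ W : Subgroup G, W ≤ K → KK p W → II p W) (hK : KK p K) (hJ : JJ p A 0 K) :
    ∀ (i : ℕ), i + 2 ≤ p → ∀ T : Finset (Subgroup G), T ⊆ A → T.card ≤ i →
      ∃ Y : Subgroup G, KK p Y ∧ Y ≤ K ∧ (∀ β ∈ T, Y ≤ β) ∧ JJ p A i Y := by
  classical
  intro i
  induction i with
  | zero =>
    intro _ T _ hT
    refine ⟨K, hK, le_rfl, ?_, hJ⟩
    rw [Nat.le_zero, Finset.card_eq_zero] at hT
    simp [hT]
  | succ i ih =>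
    intro hi T hTA hT
    rcases T.eq_empty_or_nonempty with rfl | ⟨γ, hγ⟩
    · obtain ⟨Y, h1, h2, _, h4⟩ := ih (by omega) ∅ (by simp) (by simp)
      exact ⟨Y, h1, h2, by simp, h4.succ p⟩
    · obtain ⟨Y, h1, h2, h3, h4⟩ := ih (by omega) (T.erase γ)
        ((Finset.erase_subset _ _).trans hTA) (by rw [Finset.card_erase_of_mem hγ]; omega)
      by_cases hYγ : Y ≤ γ
      · refine ⟨Y, h1, h2, fun β hβ => ?_, h4.succ p⟩
        by_cases e : β = γ
        · rw [e]; exact hYγ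
        · exact h3 β (Finset.mem_erase.2 ⟨e, hβ⟩)
      · have hlt := gen_inf_lt p hYγ
        refine ⟨gen p (Y ⊓ γ), KK_gen p (h4 γ (hTA hγ) hYγ).1, hlt.le.trans h2, fun β hβ => ?_,
          step p (by omega) (fun W hW => hI W (hW.trans h2)) h1 h4 (hTA hγ) hYγ⟩
        by_cases e : β = γ
        · rw [e]; exact (gen_le p _).trans inf_le_right
        · exact hlt.le.trans (h3 β (Finset.mem_erase.2 ⟨e, hβ⟩))

theorem common_sylow {A : Finset (Subgroup G)} {K : Subgroup G}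
    (hI : ∀ W : Subgroup G, W ≤ K → KK p W → II p W) (hK : KK p K) (hJ : JJ p A 0 K)
    (T : Finset (Subgroup G)) (hTA : T ⊆ A) (hT : T.card + 1 ≤ p) :
    ∃ P : Sylow p G, (P : Subgroup G) ≤ K ∧ ∀ β ∈ T, (P : Subgroup G) ≤ β := by
  classical
  rcases T.eq_empty_or_nonempty with rfl | ⟨γ, hγ⟩
  · obtain ⟨P, hP⟩ := hK.1
    exact ⟨P, hP, by simp⟩
  · have hc := Finset.card_erase_add_one hγ
    obtain ⟨Y, h1, h2, h3, h4⟩ := chain p hI hK hJ (T.erase γ).card (by omega) (T.erase γ)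
      ((Finset.erase_subset _ _).trans hTA) le_rfl
    have : ∃ P : Sylow p G, (P : Subgroup G) ≤ Y ⊓ γ := by
      by_cases hYγ : Y ≤ γ
      · obtain ⟨P, hP⟩ := h1.1
        exact ⟨P, le_inf hP (hP.trans hYγ)⟩
      · exact (h4 γ (hTA hγ) hYγ).1
    obtain ⟨P, hP⟩ := this
    rw [le_inf_iff] at hP
    refine ⟨P, hP.1.trans h2, fun β hβ => ?_⟩
    by_cases e : β = γ
    · rw [e]; exact hP.2
    · exact hP.1.trans (h3 β (Finset.mem_erase.2 ⟨e, hβ⟩))

theorem exists_elt {K : Subgroup G} {Q : Subgroup G} (hQ : IsPGroup p Q)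
    (h : ∃ x ∈ Q, cj x K ≠ K) :
    ∃ x ∈ Q, cj x K ≠ K ∧ cj (x ^ p) K = K := by
  by_contra hc
  push Not at hc
  obtain ⟨x, hx, hne⟩ := h
  have : ∀ j : ℕ, cj (x ^ p ^ j) K ≠ K := by
    intro j
    induction j with
    | zero => simpa using hne
    | succ j ih =>
      rw [pow_succ, pow_mul]
      exact hc _ (Q.pow_mem hx _) ih
  obtain ⟨k, hk⟩ := hQ ⟨x, hx⟩
  have hk' : x ^ p ^ k = 1 := by simpa using congrArg Subtype.val hk
  apply this k
  rw [hk', cj_one]

theorem cj_pow_mul {K : Subgroup G} {y : G} (h : cj y K = K) (n : ℕ) : cj (y ^ n) K = K := by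
  induction n with
  | zero => simp [cj_one]
  | succ n ih => rw [pow_succ, cj_mul, h, ih]

theorem final_contra {K X : Subgroup G} (hX : KK p X) (hKX : K < X) (hK : KK p K)
    (hc : ∀ T : Finset (Subgroup G), T ⊆ orb X K → T.card + 1 ≤ p →
      ∃ P : Sylow p G, (P : Subgroup G) ≤ K ∧ ∀ β ∈ T, (P : Subgroup G) ≤ β) : False := by
  classical
  obtain ⟨Q, hQX, hQK⟩ := hX.exists_not_le p (not_le_of_gt hKX)
  obtain ⟨P0, hP0⟩ := hK.1
  have h1 : ∃ x ∈ (Q : Subgroup G), cj x K ≠ K := by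
    by_contra hh
    push Not at hh
    exact hQK (le_of_fixed p hP0 hh)
  obtain ⟨x, hx, hne, hxp⟩ := exists_elt p Q.isPGroup' h1
  have hp2 := hp.out.two_le
  obtain ⟨P, hPK, hPT⟩ := hc ((Finset.Ico 1 p).image fun i => cj (x ^ i) K)
    (by
      intro W hW
      obtain ⟨i, _, rfl⟩ := Finset.mem_image.1 hW
      exact mem_orb.2 ⟨x ^ i, X.pow_mem (hQX hx) i, rfl⟩)
    (by
      have := Finset.card_image_le (s := Finset.Ico 1 p) (f := fun i => cj (x ^ i) K)
      rw [Nat.card_Ico] at this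
      omega)
  have hall : ∀ i : ℕ, (P : Subgroup G) ≤ cj (x ^ i) K := by
    intro i
    have e : cj (x ^ i) K = cj (x ^ (i % p)) K := by
      conv_lhs => rw [← Nat.mod_add_div i p, pow_add, pow_mul, cj_mul, cj_pow_mul hxp]
    rw [e]
    by_cases h0 : i % p = 0
    · rw [h0, pow_zero, cj_one]; exact hPK
    · apply hPT
      refine Finset.mem_image.2 ⟨i % p, Finset.mem_Ico.2 ⟨by omega, Nat.mod_lt _ (by omega)⟩, rfl⟩
  set L : Subgroup G := ⨅ i : ℕ, cj (x ^ i) K with hL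
  have hPL : (P : Subgroup G) ≤ L := le_iInf hall
  have hL2 : L ≤ cj x L := by
    rw [le_cj_iff]
    refine le_iInf fun i => ?_
    rw [← le_cj_iff, ← cj_mul, ← pow_succ']
    exact iInf_le (fun i : ℕ => cj (x ^ i) K) (i + 1)
  have hL3 := (eq_of_le_cj hL2).symm
  obtain ⟨k, hk⟩ := Q.isPGroup' ⟨x, hx⟩
  have hxL : x ∈ L := mem_of_mem_normalizer p hPL (k := k)
    (by simpa using congrArg Subtype.val hk) (mem_normalizer_of_cj hL3)
  have hLK : L ≤ K := by
    have := iInf_le (fun i : ℕ => cj (x ^ i) K) 0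
    simpa [cj_one] using this
  exact hne (cj_self (hLK hxL))

theorem II_of_KK (X : Subgroup G) (hX : KK p X) : II p X := by
  classical
  induction hn : Nat.card X using Nat.strong_induction_on generalizing X with
  | _ n ih =>
  intro Z hZ
  by_contra hneg
  push Not at hneg
  have hnuX : (0 : ℤ) < nu p X := by exact_mod_cast nu_pos p hX.1
  have hp2 : (2 : ℤ) ≤ p := by exact_mod_cast hp.out.two_le
  have hS : ∃ P : Sylow p G, (P : Subgroup G) ≤ X ⊓ Z := by
    apply exists_of_nu_pos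
    by_contra h0
    have h0' : nu p (X ⊓ Z) = 0 := by omega
    unfold rr at hneg
    rw [h0'] at hneg
    push_cast at hneg
    nlinarith
  set K := gen p (X ⊓ Z) with hKdef
  have hK : KK p K := KK_gen p hS
  have hKX : K < X := gen_inf_lt p hZ
  have hI : ∀ W : Subgroup G, W ≤ K → KK p W → II p W := by
    intro W hW hWK
    refine ih (Nat.card W) ?_ W hWK rfl
    rw [← hn]
    have hlt : W < X := lt_of_le_of_lt hW hKX
    exact lt_of_le_of_ne (Subgroup.card_le_of_le hlt.le)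
      fun e => hlt.ne (Subgroup.eq_of_le_of_card_ge hlt.le e.ge)
  rw [← rr_gen, ← hKdef] at hneg
  obtain ⟨P, hP⟩ := hK.1
  have hPX : (P : Subgroup G) ≤ X := hP.trans hKX.le
  have hnuK : (0 : ℤ) < nu p K := by exact_mod_cast nu_pos p hK.1
  have h1 := card_mul_rr p K hPX
  have hBpos : (0 : ℤ) < (orb X K).card := by
    exact_mod_cast Finset.card_pos.2 ⟨K, self_mem_orb X K⟩
  obtain ⟨s, hs⟩ := dvd_mv p ((invt_orb X K).mono hPX) (orb_has_sylow p hK.1)
  have hfm := fx_add_mv (P : Subgroup G) (orb X K)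
  have hn' : ((orb X K).card : ℤ) = fx (P : Subgroup G) (orb X K) + p * s := by
    rw [← hfm, hs]; push_cast; ring
  have hD0 : ((p : ℤ) - 1) * (orb X K).card -
      (2 * (p : ℤ) - 1) * fx (P : Subgroup G) (orb X K) < 0 := by
    by_contra hc
    push Not at hc
    have := mul_nonneg hnuX.le hc
    have := mul_neg_of_pos_of_neg hBpos hneg
    linarith
  have hD : ((p : ℤ) - 1) * (orb X K).card -
      (2 * (p : ℤ) - 1) * fx (P : Subgroup G) (orb X K) ≤ -p := by
    rw [hn'] at hD0 ⊢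
    have t : ((p : ℤ) - 1) * s - fx (P : Subgroup G) (orb X K) < 0 := by
      by_contra hc
      push Not at hc
      have := mul_nonneg (show (0 : ℤ) ≤ p by linarith) hc
      nlinarith
    have t' : ((p : ℤ) - 1) * s - fx (P : Subgroup G) (orb X K) ≤ -1 := by omega
    have := mul_le_mul_of_nonneg_left t' (show (0 : ℤ) ≤ p by linarith)
    nlinarith
  have hsum := sum_rr p ((invt_orb X K).mono hKX.le) hP
  rw [← Finset.add_sum_erase _ _ (self_mem_orb X K), rr_of_le p le_rfl] at hsum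
  have hnn : ∀ W ∈ (orb X K).erase K, 0 ≤ rr p K W := by
    intro W hW
    rw [Finset.mem_erase] at hW
    refine hI K le_rfl hK W fun h => hW.1 ?_
    exact (Subgroup.eq_of_le_of_card_ge h (card_orb_mem hW.2).le).symm
  have hz : ∑ W ∈ (orb X K).erase K, rr p K W = 0 := by
    apply le_antisymm _ (Finset.sum_nonneg hnn)
    have := mul_le_mul_of_nonneg_left hD hnuK.le
    nlinarith
  rw [Finset.sum_eq_zero_iff_of_nonneg hnn] at hz
  have hJ : JJ p (orb X K) 0 K := by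
    intro β hβ hKβ
    have h0 : rr p K β = 0 := hz β (Finset.mem_erase.2 ⟨fun e => hKβ e.ge, hβ⟩)
    refine ⟨?_, by rw [h0]; simp⟩
    apply exists_of_nu_pos
    by_contra h0'
    have h0'' : nu p (K ⊓ β) = 0 := by omega
    unfold rr at h0
    rw [h0''] at h0
    push_cast at h0
    nlinarith
  exact final_contra p hX hKX hK (common_sylow p hI hK hJ)

end Cfsg.Agent.SylR
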