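import Mathlib

set_option autoImplicit false

namespace Cfsg.Agent.SylR

open scoped Pointwise

variable {G : Type*} [Group G]

/-- conjugate subgroup -/
def cj (g : G) (Z : Subgroup G) : Subgroup G := MulAut.conj g • Z

theorem cj_one (Z : Subgroup G) : cj 1 Z = Z := by simp [cj]

theorem cj_mul (a b : G) (Z : Subgroup G) : cj (a * b) Z = cj a (cj b Z) := by
  simp [cj, mul_smul]

theorem cj_inv_cj (a : G) (Z : Subgroup G) : cj a⁻¹ (cj a Z) = Z := by
  rw [← cj_mul, inv_mul_cancel, cj_one]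

theorem cj_cj_inv (a : G) (Z : Subgroup G) : cj a (cj a⁻¹ Z) = Z := by
  rw [← cj_mul, mul_inv_cancel, cj_one]

theorem cj_le_cj_iff (g : G) (A B : Subgroup G) : cj g A ≤ cj g B ↔ A ≤ B :=
  Subgroup.pointwise_smul_le_pointwise_smul_iff

theorem le_cj_iff (g : G) (A B : Subgroup G) : A ≤ cj g B ↔ cj g⁻¹ A ≤ B := by
  rw [← cj_le_cj_iff g (cj g⁻¹ A) B, cj_cj_inv]

theorem cj_le_iff (g : G) (A B : Subgroup G) : cj g A ≤ B ↔ A ≤ cj g⁻¹ B := by
  rw [le_cj_iff, inv_inv]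

theorem cj_self {g : G} {Y : Subgroup G} (h : g ∈ Y) : cj g Y = Y :=
  Subgroup.conj_smul_eq_self_of_mem h

theorem cj_inf (g : G) (A B : Subgroup G) : cj g (A ⊓ B) = cj g A ⊓ cj g B :=
  Subgroup.smul_inf _ _ _

theorem cj_injective (g : G) : Function.Injective (cj g : Subgroup G → Subgroup G) := by
  intro A B h
  rw [← cj_inv_cj g A, h, cj_inv_cj]

theorem card_cj (g : G) (A : Subgroup G) : Nat.card (cj g A) = Nat.card A :=
  (Nat.card_congr (Subgroup.equivSMul (MulAut.conj g) A).toEquiv).symm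

theorem mem_cj (g x : G) (A : Subgroup G) : x ∈ cj g A ↔ g⁻¹ * x * g ∈ A := by
  unfold cj
  rw [Subgroup.mem_pointwise_smul_iff_inv_smul_mem]
  simp

theorem mem_normalizer_of_cj {g : G} {A : Subgroup G} (h : cj g A = A) :
    g ∈ Subgroup.normalizer (A : Set G) := by
  rw [Subgroup.mem_normalizer_iff'']
  intro x
  rw [← mem_cj, h]

theorem cj_of_mem_normalizer {g : G} {A : Subgroup G}
    (h : g ∈ Subgroup.normalizer (A : Set G)) : cj g A = A := by
  rw [Subgroup.mem_normalizer_iff''] at h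
  ext x
  rw [mem_cj, ← h]

variable [Finite G]

theorem eq_of_le_cj {g : G} {A : Subgroup G} (h : A ≤ cj g A) : A = cj g A :=
  Subgroup.eq_of_le_of_card_ge h (by rw [card_cj])

variable (p : ℕ)

theorem coe_smul (g : G) (P : Sylow p G) :
    ((g • P : Sylow p G) : Subgroup G) = cj g (P : Subgroup G) := rfl

/-- Sylow subgroups of `G` inside `Y` -/
noncomputable def S (Y : Subgroup G) : Finset (Sylow p G) :=
  (Set.toFinite {P : Sylow p G | (P : Subgroup G) ≤ Y}).toFinset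

theorem mem_S {Y : Subgroup G} {P : Sylow p G} : P ∈ S p Y ↔ (P : Subgroup G) ≤ Y := by
  simp [S]

/-- number of Sylow subgroups of `G` inside `Y` -/
noncomputable def nu (Y : Subgroup G) : ℕ := (S p Y).card

/-- subgroup generated by the Sylow subgroups of `G` inside `Y` -/
def gen (Y : Subgroup G) : Subgroup G :=
  ⨆ (P : Sylow p G) (_ : (P : Subgroup G) ≤ Y), (P : Subgroup G)

omit [Finite G] in
theorem gen_le_iff (Y Z : Subgroup G) :
    gen p Y ≤ Z ↔ ∀ P : Sylow p G, (P : Subgroup G) ≤ Y → (P : Subgroup G) ≤ Z := by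
  simp [gen, iSup_le_iff]

omit [Finite G] in
theorem gen_le (Y : Subgroup G) : gen p Y ≤ Y := (gen_le_iff p Y Y).2 fun _ h => h

omit [Finite G] in
theorem le_gen {Y : Subgroup G} {P : Sylow p G} (h : (P : Subgroup G) ≤ Y) :
    (P : Subgroup G) ≤ gen p Y := (gen_le_iff p Y _).1 le_rfl P h

omit [Finite G] in
theorem le_gen_iff {Y : Subgroup G} {P : Sylow p G} :
    (P : Subgroup G) ≤ gen p Y ↔ (P : Subgroup G) ≤ Y :=
  ⟨fun h => h.trans (gen_le p Y), le_gen p⟩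

theorem S_gen (Y : Subgroup G) : S p (gen p Y) = S p Y := by
  ext P; rw [mem_S, mem_S, le_gen_iff]

omit [Finite G] in
theorem gen_congr {Y Z : Subgroup G}
    (h : ∀ P : Sylow p G, (P : Subgroup G) ≤ Y ↔ (P : Subgroup G) ≤ Z) : gen p Y = gen p Z :=
  le_antisymm ((gen_le_iff p _ _).2 fun P hP => le_gen p ((h P).1 hP))
    ((gen_le_iff p _ _).2 fun P hP => le_gen p ((h P).2 hP))

theorem nu_congr {Y Z : Subgroup G}
    (h : ∀ P : Sylow p G, (P : Subgroup G) ≤ Y ↔ (P : Subgroup G) ≤ Z) : nu p Y = nu p Z := by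
  unfold nu
  congr 1
  ext P; rw [mem_S, mem_S, h]

theorem cj_gen (g : G) (Y : Subgroup G) : cj g (gen p Y) = gen p (cj g Y) := by
  apply le_antisymm
  · rw [cj_le_iff, gen_le_iff]
    intro P hP
    rw [← cj_le_iff, ← coe_smul]
    apply le_gen
    rw [coe_smul, cj_le_cj_iff]; exact hP
  · rw [gen_le_iff]
    intro P hP
    rw [le_cj_iff] at hP ⊢
    rw [← coe_smul] at hP ⊢
    exact le_gen p hP

theorem nu_cj (g : G) (Y : Subgroup G) : nu p (cj g Y) = nu p Y := by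
  unfold nu
  symm
  apply Finset.card_bij (fun P _ => g • P)
  · intro P hP
    rw [mem_S] at hP ⊢
    rw [coe_smul, cj_le_cj_iff]; exact hP
  · intro P _ Q _ h
    exact smul_left_cancel g h
  · intro Q hQ
    refine ⟨g⁻¹ • Q, ?_, smul_inv_smul g Q⟩
    rw [mem_S] at hQ ⊢
    rw [coe_smul, ← le_cj_iff]; exact hQ

/-- the class of subgroups generated by a nonempty set of Sylow subgroups -/
def KK (Y : Subgroup G) : Prop := (∃ P : Sylow p G, (P : Subgroup G) ≤ Y) ∧ Y ≤ gen p Y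

omit [Finite G] in
theorem KK_gen {Y : Subgroup G} (h : ∃ P : Sylow p G, (P : Subgroup G) ≤ Y) : KK p (gen p Y) := by
  obtain ⟨P, hP⟩ := h
  refine ⟨⟨P, le_gen p hP⟩, ?_⟩
  rw [gen_le_iff]
  intro Q hQ
  exact le_gen p (le_gen p hQ)

theorem KK_cj (g : G) {Y : Subgroup G} (h : KK p Y) : KK p (cj g Y) := by
  obtain ⟨⟨P, hP⟩, h2⟩ := h
  refine ⟨⟨g • P, by rw [coe_smul, cj_le_cj_iff]; exact hP⟩, ?_⟩
  rw [← cj_gen, cj_le_cj_iff]; exact h2

omit [Finite G] in
theorem KK.exists_not_le {Y Z : Subgroup G} (h : KK p Y) (hZ : ¬ Y ≤ Z) :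
    ∃ Q : Sylow p G, (Q : Subgroup G) ≤ Y ∧ ¬ (Q : Subgroup G) ≤ Z := by
  by_contra hc
  push Not at hc
  exact hZ (h.2.trans ((gen_le_iff p _ _).2 hc))

theorem nu_pos {Y : Subgroup G} (h : ∃ P : Sylow p G, (P : Subgroup G) ≤ Y) : 0 < nu p Y := by
  obtain ⟨P, hP⟩ := h
  exact Finset.card_pos.2 ⟨P, (mem_S p).2 hP⟩

theorem exists_of_nu_pos {Y : Subgroup G} (h : 0 < nu p Y) :
    ∃ P : Sylow p G, (P : Subgroup G) ≤ Y := by
  obtain ⟨P, hP⟩ := Finset.card_pos.1 h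
  exact ⟨P, (mem_S p).1 hP⟩

theorem nu_lt {Y Z : Subgroup G} (hZY : Z ≤ Y) (h : KK p Y) (hZ : ¬ Y ≤ Z) : nu p Z < nu p Y := by
  obtain ⟨Q, h1, h2⟩ := h.exists_not_le p hZ
  apply Finset.card_lt_card
  rw [Finset.ssubset_iff_of_subset]
  · exact ⟨Q, (mem_S p).2 h1, fun h => h2 ((mem_S p).1 h)⟩
  · intro R hR
    exact (mem_S p).2 (((mem_S p).1 hR).trans hZY)

variable [hp : Fact p.Prime]

theorem exists_smul {Y : Subgroup G} {P Q : Sylow p G} (hP : (P : Subgroup G) ≤ Y)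
    (hQ : (Q : Subgroup G) ≤ Y) : ∃ y ∈ Y, y • P = Q := by
  obtain ⟨y, hy⟩ := MulAction.exists_smul_eq Y (P.subtype hP) (Q.subtype hQ)
  rw [Sylow.smul_subtype] at hy
  exact ⟨y, y.2, Sylow.subtype_injective hy⟩

theorem mem_of_mem_normalizer {L : Subgroup G} {P : Sylow p G} (hP : (P : Subgroup G) ≤ L)
    {x : G} {k : ℕ} (hx : x ^ p ^ k = 1) (hn : x ∈ Subgroup.normalizer (L : Set G)) : x ∈ L := by
  set N := Subgroup.normalizer (L : Set G) with hN
  have hLN : L ≤ N := Subgroup.le_normalizer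
  let y : N := ⟨x, hn⟩
  let q : N ⧸ L.subgroupOf N := QuotientGroup.mk y
  have h1 : orderOf q ∣ p ^ k := by
    apply orderOf_dvd_of_pow_eq_one
    have : y ^ p ^ k = 1 := Subtype.ext (by simpa using hx)
    show (QuotientGroup.mk y : N ⧸ L.subgroupOf N) ^ p ^ k = 1
    rw [← QuotientGroup.mk_pow, this, QuotientGroup.mk_one]
  have h2 : orderOf q ∣ (P : Subgroup G).index := by
    have a1 : orderOf q ∣ L.relIndex N := orderOf_dvd_natCard q
    have a2 : L.relIndex N ∣ L.index := Subgroup.relIndex_dvd_index_of_le hLN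
    have a3 : L.index ∣ (P : Subgroup G).index := Subgroup.index_dvd_of_le hP
    exact a1.trans (a2.trans a3)
  have h3 : Nat.Coprime (p ^ k) (P : Subgroup G).index :=
    Nat.Coprime.pow_left _ ((Nat.Prime.coprime_iff_not_dvd hp.out).2 P.not_dvd_index)
  have h4 : orderOf q = 1 := Nat.eq_one_of_dvd_coprimes h3 h1 h2
  have h5 : q = 1 := orderOf_eq_one_iff.1 h4
  have h6 : y ∈ L.subgroupOf N := (QuotientGroup.eq_one_iff y).1 h5
  exact h6

theorem le_of_fixed {L : Subgroup G} {P Q : Sylow p G} (hP : (P : Subgroup G) ≤ L)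
    (h : ∀ x ∈ (Q : Subgroup G), cj x L = L) : (Q : Subgroup G) ≤ L := by
  intro x hx
  obtain ⟨k, hk⟩ := Q.isPGroup' ⟨x, hx⟩
  exact mem_of_mem_normalizer p hP (k := k) (by simpa using congrArg Subtype.val hk)
    (mem_normalizer_of_cj (h x hx))

omit hp in
/-- orbit of a subgroup under conjugation by `Y` -/
noncomputable def orb (Y Z : Subgroup G) : Finset (Subgroup G) :=
  (Set.toFinite {Z' : Subgroup G | ∃ y ∈ Y, cj y Z = Z'}).toFinset

omit hp in
theorem mem_orb {Y Z Z' : Subgroup G} : Z' ∈ orb Y Z ↔ ∃ y ∈ Y, cj y Z = Z' := by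
  simp [orb]

omit hp in
theorem self_mem_orb (Y Z : Subgroup G) : Z ∈ orb Y Z := mem_orb.2 ⟨1, Y.one_mem, cj_one Z⟩

/-- invariance of a family of subgroups -/
def Invt (Y : Subgroup G) (B : Finset (Subgroup G)) : Prop := ∀ y ∈ Y, ∀ Z ∈ B, cj y Z ∈ B

omit hp in
theorem invt_orb (Y Z : Subgroup G) : Invt Y (orb Y Z) := by
  intro y hy Z' hZ'
  obtain ⟨a, ha, rfl⟩ := mem_orb.1 hZ'
  exact mem_orb.2 ⟨y * a, Y.mul_mem hy ha, cj_mul _ _ _⟩

omit hp [Finite G] in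
theorem Invt.mono {Y Y' : Subgroup G} {B : Finset (Subgroup G)} (h : Invt Y B) (hY : Y' ≤ Y) :
    Invt Y' B := fun y hy Z hZ => h y (hY hy) Z hZ

omit hp in
theorem orb_subset {Y Z : Subgroup G} {B : Finset (Subgroup G)} (h : Invt Y B) (hZ : Z ∈ B) :
    orb Y Z ⊆ B := by
  intro Z' hZ'
  obtain ⟨a, ha, rfl⟩ := mem_orb.1 hZ'
  exact h a ha Z hZ

open Classical in
/-- members containing `P` -/
noncomputable def fx (P : Subgroup G) (B : Finset (Subgroup G)) : ℕ :=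
  (B.filter fun Z => P ≤ Z).card

open Classical in
/-- members not containing `P` -/
noncomputable def mv (P : Subgroup G) (B : Finset (Subgroup G)) : ℕ :=
  (B.filter fun Z => ¬ P ≤ Z).card

omit hp [Finite G] in
theorem fx_add_mv (P : Subgroup G) (B : Finset (Subgroup G)) : fx P B + mv P B = B.card := by
  classical
  unfold fx mv
  convert Finset.card_filter_add_card_filter_not (s := B) (fun Z => P ≤ Z)

theorem dvd_mv {P : Sylow p G} {B : Finset (Subgroup G)} (hB : Invt (P : Subgroup G) B)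
    (hS : ∀ Z ∈ B, ∃ Q : Sylow p G, (Q : Subgroup G) ≤ Z) : p ∣ mv (P : Subgroup G) B := by
  classical
  by_contra hc
  set B' := B.filter fun Z => ¬ (P : Subgroup G) ≤ Z with hB'
  have hinv : ∀ y ∈ (P : Subgroup G), ∀ Z ∈ B', cj y Z ∈ B' := by
    intro y hy Z hZ
    rw [hB', Finset.mem_filter] at hZ ⊢
    refine ⟨hB y hy Z hZ.1, fun h => hZ.2 ?_⟩
    rw [le_cj_iff, cj_self ((P : Subgroup G).inv_mem hy)] at h
    exact h
  letI : MulAction (P : Subgroup G) B' :=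
    { smul := fun y Z => ⟨cj y.1 Z.1, hinv y.1 y.2 Z.1 Z.2⟩
      one_smul := fun Z => Subtype.ext (cj_one _)
      mul_smul := fun a b Z => Subtype.ext (cj_mul _ _ _) }
  have hcard : Nat.card B' = mv (P : Subgroup G) B := by
    rw [Nat.card_eq_fintype_card, Fintype.card_coe]
    unfold mv
    congr 1
  obtain ⟨Z, hZ⟩ := P.isPGroup'.nonempty_fixed_point_of_prime_not_dvd_card B' (by rwa [hcard])
  have hZ2 := Z.2
  simp only [hB', Finset.mem_filter] at hZ2
  obtain ⟨Q, hQ⟩ := hS Z.1 hZ2.1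
  apply hZ2.2
  apply le_of_fixed p hQ
  intro x hx
  exact congrArg Subtype.val (hZ ⟨x, hx⟩)

omit hp [Finite G] in
theorem mv_pos {P Z : Subgroup G} {B : Finset (Subgroup G)} (hZ : Z ∈ B) (h : ¬ P ≤ Z) :
    0 < mv P B := by
  classical
  unfold mv
  apply Finset.card_pos.2
  exact ⟨Z, by simp only [Finset.mem_filter]; exact ⟨hZ, h⟩⟩

theorem fx_le {Y : Subgroup G} {P Q : Sylow p G} {B : Finset (Subgroup G)} (hB : Invt Y B)
    (hP : (P : Subgroup G) ≤ Y) (hQ : (Q : Subgroup G) ≤ Y) :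
    fx (P : Subgroup G) B ≤ fx (Q : Subgroup G) B := by
  classical
  obtain ⟨y, hy, rfl⟩ := exists_smul p hP hQ
  unfold fx
  apply Finset.card_le_card_of_injOn (cj y)
  · intro Z hZ
    simp only [Finset.coe_filter, Set.mem_setOf_eq] at hZ ⊢
    refine ⟨hB y hy Z hZ.1, ?_⟩
    rw [coe_smul, cj_le_cj_iff]; exact hZ.2
  · exact (cj_injective y).injOn

theorem sum_nu {Y : Subgroup G} {P : Sylow p G} {B : Finset (Subgroup G)} (hB : Invt Y B)
    (hP : (P : Subgroup G) ≤ Y) :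
    ∑ Z ∈ B, nu p (Y ⊓ Z) = nu p Y * fx (P : Subgroup G) B := by
  classical
  have h1 : ∀ Z ∈ B, nu p (Y ⊓ Z) =
      ∑ Q ∈ S p Y, if (Q : Subgroup G) ≤ Z then 1 else 0 := by
    intro Z _
    rw [← Finset.card_filter]
    unfold nu
    congr 1
    ext Q
    rw [Finset.mem_filter, mem_S, mem_S, le_inf_iff]
  rw [Finset.sum_congr rfl h1, Finset.sum_comm]
  have h2 : ∀ Q ∈ S p Y, (∑ Z ∈ B, if (Q : Subgroup G) ≤ Z then 1 else 0) =
      fx (P : Subgroup G) B := by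
    intro Q hQ
    rw [← Finset.card_filter]
    have : fx (Q : Subgroup G) B = fx (P : Subgroup G) B :=
      le_antisymm (fx_le p hB ((mem_S p).1 hQ) hP) (fx_le p hB hP ((mem_S p).1 hQ))
    rw [← this]
    unfold fx
    congr 1
  rw [Finset.sum_congr rfl h2, Finset.sum_const, smul_eq_mul]
  rfl

omit hp in
theorem nu_inf_orb {Y Z Z' : Subgroup G} (h : Z' ∈ orb Y Z) : nu p (Y ⊓ Z') = nu p (Y ⊓ Z) := by
  obtain ⟨y, hy, rfl⟩ := mem_orb.1 h
  rw [← nu_cj p y (Y ⊓ Z), cj_inf, cj_self hy]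

theorem orb_id {Y : Subgroup G} (Z : Subgroup G) {P : Sylow p G} (hP : (P : Subgroup G) ≤ Y) :
    (orb Y Z).card * nu p (Y ⊓ Z) = nu p Y * fx (P : Subgroup G) (orb Y Z) := by
  rw [← sum_nu p (invt_orb Y Z) hP, Finset.sum_congr rfl fun Z' h => nu_inf_orb p h,
    Finset.sum_const, smul_eq_mul]

theorem exists_moved {Y Z : Subgroup G} {P : Sylow p G} (hY : KK p Y) (hZ : ¬ Y ≤ Z)
    (hP : (P : Subgroup G) ≤ Y) : ∃ Z' ∈ orb Y Z, ¬ (P : Subgroup G) ≤ Z' := by
  obtain ⟨Q, h1, h2⟩ := hY.exists_not_le p hZ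
  obtain ⟨y, hy, rfl⟩ := exists_smul p h1 hP
  refine ⟨cj y Z, mem_orb.2 ⟨y, hy, rfl⟩, ?_⟩
  rw [coe_smul, cj_le_cj_iff]; exact h2

end Cfsg.Agent.SylR
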